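import Cfsg.Agent.H495.HT.Rho

/-!
# The cuspidal character of `GL₂(q)`, `q ≡ 2 (mod 3)`, attached to a character of order three: all values (helper367, S4933)

`exists_rho'` : `exists_rho` of helper495 with the values at the elements without invariant lines: `-2` if
`g ^ ((q + 1) / 3)` is central and `1` otherwise.
-/

set_option autoImplicit false

open Polynomial Cfsg
open scoped ComplexConjugate

namespace Cfsg.Agent.H367.HT

open Cfsg.Agent.H139.Cusp Cfsg.Agent.H53.HC Cfsg.Agent.H495.HT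

universe u v w

attribute [local instance] fintypeHom fintypeSub finite_quot

section

variable {F : Type u} [Field F] [Finite F] {L : Type w} [Field L] [Finite L] [Algebra F L]

omit [Finite F] in
/-- a root of the characteristic polynomial gives an invariant line -/
theorem ln_pos [Finite F] {g : GL (Fin 2) F} {c : F} (hc : (g : Matrix (Fin 2) (Fin 2) F).charpoly.IsRoot c) :
    0 < ln g := by
  have h1 : Module.End.HasEigenvalue (Matrix.toLin' (g : Matrix (Fin 2) (Fin 2) F)) c := by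
    rw [Module.End.hasEigenvalue_iff_isRoot_charpoly, Matrix.charpoly_toLin']
    exact hc
  obtain ⟨v, hv⟩ := h1.exists_hasEigenvector
  have hv0 : v ≠ 0 := hv.2
  have hgv : Matrix.toLin' (g : Matrix (Fin 2) (Fin 2) F) v = c • v := Module.End.mem_eigenspace_iff.1 hv.1
  have : Finite (Submodule F (Fin 2 → F)) := inferInstance
  refine Nat.card_pos_iff.2 ⟨⟨⟨F ∙ v, finrank_span_singleton hv0, ?_⟩⟩, inferInstance⟩
  intro x hx
  obtain ⟨a, rfl⟩ := Submodule.mem_span_singleton.1 hx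
  rw [Submodule.mem_comap, map_smul, hgv]
  exact Submodule.smul_mem _ _ (Submodule.smul_mem _ _ (Submodule.mem_span_singleton_self v))

omit [Finite F] in
theorem irr_of_ln [Finite F] {g : GL (Fin 2) F} (h : ln g = 0) :
    Irreducible (g : Matrix (Fin 2) (Fin 2) F).charpoly := by
  have hdeg : (g : Matrix (Fin 2) (Fin 2) F).charpoly.natDegree = 2 := by
    rw [Matrix.charpoly_natDegree_eq_dim, Fintype.card_fin]
  have hmon : (g : Matrix (Fin 2) (Fin 2) F).charpoly.Monic := Matrix.charpoly_monic _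
  rw [hmon.irreducible_iff_roots_eq_zero_of_degree_le_three (by rw [hdeg]) (by rw [hdeg]; norm_num)]
  by_contra hne
  obtain ⟨c, hc⟩ := Multiset.exists_mem_of_ne_zero hne
  have h1 := ln_pos (Polynomial.isRoot_of_mem_roots hc)
  omega

/-- a polynomial vanishes at `g` when it vanishes at the root -/
theorem aeval_of_root {g : GL (Fin 2) F} (hi : Irreducible (g : Matrix (Fin 2) (Fin 2) F).charpoly) {x : L}
    (hx : aeval x (g : Matrix (Fin 2) (Fin 2) F).charpoly = 0) (f : F[X]) :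
    aeval x f = 0 ↔ aeval (g : Matrix (Fin 2) (Fin 2) F) f = 0 := by
  have hmon : (g : Matrix (Fin 2) (Fin 2) F).charpoly.Monic := Matrix.charpoly_monic _
  have h1 : (g : Matrix (Fin 2) (Fin 2) F).charpoly = minpoly F x := minpoly.eq_of_irreducible_of_monic hi hx hmon
  have h2 : (g : Matrix (Fin 2) (Fin 2) F).charpoly = minpoly F (g : Matrix (Fin 2) (Fin 2) F) :=
    minpoly.eq_of_irreducible_of_monic hi (Matrix.aeval_self_charpoly _) hmon
  rw [← minpoly.dvd_iff, ← minpoly.dvd_iff, ← h1, ← h2]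

omit [Finite L] in
theorem mem_range_of_pow {u : L} (h : u ^ Nat.card F = u) : ∃ c : F, algebraMap F L c = u := by
  classical
  have hF : Fintype F := Fintype.ofFinite F
  have hq : 1 < Nat.card F := Finite.one_lt_card
  by_contra hcon
  push Not at hcon
  set s : Finset L := insert u (Finset.univ.image (algebraMap F L)) with hs
  have hcard : s.card = Nat.card F + 1 := by
    rw [hs, Finset.card_insert_of_notMem, Finset.card_image_of_injective _ (algebraMap F L).injective,
      Finset.card_univ, Nat.card_eq_fintype_card]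
    intro hu
    obtain ⟨c, -, hc⟩ := Finset.mem_image.1 hu
    exact hcon c hc
  have hne : (X ^ Nat.card F - X : L[X]) ≠ 0 := FiniteField.X_pow_card_sub_X_ne_zero L hq
  have hdeg : (X ^ Nat.card F - X : L[X]).natDegree = Nat.card F := FiniteField.X_pow_card_sub_X_natDegree_eq L hq
  have hsub : s.val ⊆ (X ^ Nat.card F - X : L[X]).roots := by
    intro y hy
    rw [Polynomial.mem_roots hne, Polynomial.IsRoot, eval_sub, eval_pow, eval_X, sub_eq_zero]
    rcases Finset.mem_insert.1 (Finset.mem_def.2 hy) with rfl | hy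
    · exact h
    · obtain ⟨c, -, rfl⟩ := Finset.mem_image.1 hy
      rw [← map_pow, Nat.card_eq_fintype_card, FiniteField.pow_card]
  have h1 := Polynomial.card_le_degree_of_subset_roots hsub
  omega

theorem central_iff (hL : Module.finrank F L = 2) (hq : Nat.card F % 3 = 2) {g : GL (Fin 2) F}
    (hi : Irreducible (g : Matrix (Fin 2) (Fin 2) F).charpoly) {x : L} (hx0 : x ≠ 0)
    (hx : aeval x (g : Matrix (Fin 2) (Fin 2) F).charpoly = 0) :
    g ^ ((Nat.card F + 1) / 3) ∈ Subgroup.center (GL (Fin 2) F) ↔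
      x ^ ((Nat.card F - 1) * ((Nat.card F + 1) / 3)) = 1 := by
  set m := (Nat.card F + 1) / 3 with hm
  have hq2 : 2 ≤ Nat.card F := Finite.one_lt_card
  have hFint : Fintype F := Fintype.ofFinite F
  constructor
  · intro h
    obtain ⟨c, hc⟩ := Matrix.GeneralLinearGroup.mem_center_iff_val_mem_range_scalar.1 h
    have h1 : aeval x (X ^ m - C c) = 0 := by
      rw [aeval_of_root hi hx, map_sub, map_pow, aeval_X, aeval_C, sub_eq_zero, ← Units.val_pow_eq_pow_val, ← hc]
      rfl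
    rw [map_sub, map_pow, aeval_X, aeval_C, sub_eq_zero] at h1
    have hc0 : c ≠ 0 := by
      rintro rfl
      rw [map_zero] at h1
      exact pow_ne_zero _ hx0 h1
    rw [mul_comm, pow_mul, h1, ← map_pow]
    have h2 : c ^ (Nat.card F - 1) = 1 := by
      rw [Nat.card_eq_fintype_card]
      exact FiniteField.pow_card_sub_one_eq_one _ hc0
    rw [h2, map_one]
  · intro h
    obtain ⟨c, hc⟩ : ∃ c : F, algebraMap F L c = x ^ m := by
      apply mem_range_of_pow
      have h1 : (x ^ m) ^ (Nat.card F - 1) = 1 := by rw [← pow_mul, mul_comm m, h]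
      calc (x ^ m) ^ Nat.card F = (x ^ m) ^ (Nat.card F - 1 + 1) := by rw [Nat.sub_add_cancel (by omega)]
        _ = x ^ m := by rw [pow_succ, h1, one_mul]
    have h1 : aeval x (X ^ m - C c) = 0 := by
      rw [map_sub, map_pow, aeval_X, aeval_C, sub_eq_zero, hc]
    rw [aeval_of_root hi hx, map_sub, map_pow, aeval_X, aeval_C, sub_eq_zero, ← Units.val_pow_eq_pow_val] at h1
    exact Matrix.GeneralLinearGroup.mem_center_iff_val_mem_range_scalar.2 ⟨c, h1.symm⟩

/-- the value -/
theorem psi_zero (hL : Module.finrank F L = 2) (hq : Nat.card F % 3 = 2) {θ₀ : L →*₀ ℂ} (hθ₀ : Function.Injective θ₀)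
    (ha : (Nat.card F - 1) * ((Nat.card F + 1) / 3) ≠ 0) {g : GL (Fin 2) F} (h : ln g = 0) :
    (g ^ ((Nat.card F + 1) / 3) ∈ Subgroup.center (GL (Fin 2) F) → psi L (powTheta θ₀ _ ha) g = -2) ∧
      (g ^ ((Nat.card F + 1) / 3) ∉ Subgroup.center (GL (Fin 2) F) → psi L (powTheta θ₀ _ ha) g = 1) := by
  classical
  have hq2 : 2 ≤ Nat.card F := Finite.one_lt_card
  have hi := irr_of_ln h
  have hdeg : (g : Matrix (Fin 2) (Fin 2) F).charpoly.natDegree = 2 := by
    rw [Matrix.charpoly_natDegree_eq_dim, Fintype.card_fin]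
  have hmon : (g : Matrix (Fin 2) (Fin 2) F).charpoly.Monic := Matrix.charpoly_monic _
  have hs : ((g : Matrix (Fin 2) (Fin 2) F).charpoly.map (algebraMap F L)).Splits :=
    splits_of_le (n := 2) (N := 2) (fun d hd0 hd => by interval_cases d <;> norm_num) two_ne_zero
      (hL ▸ splits_X_pow_sub_X F L) 2 le_rfl _ (Matrix.charpoly_monic _) hdeg
  obtain ⟨x, hx⟩ : ∃ x : L, aeval x (g : Matrix (Fin 2) (Fin 2) F).charpoly = 0 := by
    obtain ⟨x, hx⟩ := hs.exists_eval_eq_zero (by
      rw [Polynomial.degree_map, Polynomial.degree_eq_natDegree hmon.ne_zero, hdeg]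
      norm_num)
    exact ⟨x, by rwa [Polynomial.eval_map_algebraMap] at hx⟩
  have hx0 : x ≠ 0 := by
    rintro rfl
    have h1 : ((g : Matrix (Fin 2) (Fin 2) F)).det ≠ 0 := g.det.ne_zero
    rw [Matrix.det_eq_sign_charpoly_coeff] at h1
    have h2 : (g : Matrix (Fin 2) (Fin 2) F).charpoly.coeff 0 = 0 := by
      rw [Polynomial.aeval_def, Polynomial.eval₂_at_zero, map_eq_zero] at hx
      exact hx
    exact right_ne_zero_of_mul h1 h2
  have hmin : (g : Matrix (Fin 2) (Fin 2) F).charpoly = minpoly F x := minpoly.eq_of_irreducible_of_monic hi hx hmon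
  have htr : ∀ c : F, c ≠ 0 → powTheta θ₀ _ ha (algebraMap F L c) = 1 := fun c hc =>
    powTheta_algebraMap ha (Dvd.intro _ rfl) hc
  rw [psi_val _ htr, h, hmin, lb_minpoly, ← hmin, hdeg, Finset.sum_range_succ, Finset.sum_range_one, pow_zero, pow_one,
    pow_one]
  set t := powTheta θ₀ _ ha x with ht
  obtain ⟨k, hk⟩ : ∃ k, Nat.card F = 3 * k + 2 := ⟨Nat.card F / 3, by omega⟩
  have ht3 : t ^ 3 = 1 := by
    have hcardL : Nat.card Lˣ = Nat.card F ^ 2 - 1 := by
      rw [Nat.card_units, Module.natCard_eq_pow_finrank (K := F), hL]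
    have h3a : (Nat.card F - 1) * ((Nat.card F + 1) / 3) * 3 = Nat.card Lˣ := by
      have h1 : Nat.card F ^ 2 - 1 = (Nat.card F + 1) * (Nat.card F - 1) := by
        have := Nat.sq_sub_sq (Nat.card F) 1
        rwa [one_pow] at this
      have h2 : (Nat.card F + 1) / 3 * 3 = Nat.card F + 1 := Nat.div_mul_cancel (by omega)
      rw [hcardL, h1, mul_assoc, h2, mul_comm]
    rw [ht, powTheta_apply, ← pow_mul, h3a, ← map_pow]
    have h1 : (Units.mk0 x hx0) ^ Nat.card Lˣ = 1 := pow_card_eq_one'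
    have h2 : x ^ Nat.card Lˣ = 1 := congrArg Units.val h1
    rw [h2, map_one]
  have htq : powTheta θ₀ _ ha (x ^ Nat.card F) = t ^ 2 := by
    rw [map_pow, ← ht, hk, pow_add, pow_mul, ht3, one_pow, one_mul]
  have hiff : t = 1 ↔ x ^ ((Nat.card F - 1) * ((Nat.card F + 1) / 3)) = 1 := by
    rw [ht, powTheta_apply, ← map_pow]
    constructor
    · intro h1
      exact hθ₀ (by rw [h1, map_one])
    · intro h1
      rw [h1, map_one]
  rw [htq]
  refine ⟨fun hc => ?_, fun hc => ?_⟩
  · rw [(hiff.2 ((central_iff hL hq hi hx0 hx).1 hc))]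
    norm_num
  · have h1 : t ≠ 1 := fun h1 => hc ((central_iff hL hq hi hx0 hx).2 (hiff.1 h1))
    have h2 : (t - 1) * (t ^ 2 + t + 1) = 0 := by linear_combination ht3
    have h3 := (mul_eq_zero.1 h2).resolve_left (sub_ne_zero.2 h1)
    push_cast
    linear_combination -h3

end

/-- **The character `ρ` with all its values.** -/
theorem exists_rho' (F : Type u) [Field F] [Finite F] (hq : Nat.card F % 3 = 2) :
    ∃ ρ : IrrCharacter (GL (Fin 2) F), (ρ : GL (Fin 2) F → ℂ) 1 = (Nat.card F : ℂ) - 1 ∧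
      (∀ (c : Fˣ) (g : GL (Fin 2) F), (ρ : GL (Fin 2) F → ℂ) (Matrix.GeneralLinearGroup.scalar (Fin 2) c * g) =
        (ρ : GL (Fin 2) F → ℂ) g) ∧
      (∀ g : GL (Fin 2) F, ¬ 3 ∣ orderOf g → (ρ : GL (Fin 2) F → ℂ) g = (ln g : ℂ) - 2) ∧
      (∀ g : GL (Fin 2) F, 0 < ln g → (ρ : GL (Fin 2) F → ℂ) g = (ln g : ℂ) - 2) ∧
      IsCusp (ρ : GL (Fin 2) F → ℂ) ∧
      (∀ g : GL (Fin 2) F, ln g = 0 → g ^ ((Nat.card F + 1) / 3) ∈ Subgroup.center (GL (Fin 2) F) →
        (ρ : GL (Fin 2) F → ℂ) g = -2) ∧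
      (∀ g : GL (Fin 2) F, ln g = 0 → g ^ ((Nat.card F + 1) / 3) ∉ Subgroup.center (GL (Fin 2) F) →
        (ρ : GL (Fin 2) F → ℂ) g = 1) := by
  obtain ⟨p, hp⟩ := CharP.exists F
  have hpf : Fact p.Prime := ⟨CharP.char_is_prime F p⟩
  let L := FiniteField.Extension F p 2
  have hL : Module.finrank F L = 2 := FiniteField.finrank_extension F p 2
  obtain ⟨θ₀, hθ₀⟩ := exists_theta L
  obtain ⟨k, hk⟩ : ∃ k, Nat.card F = 3 * k + 2 := ⟨Nat.card F / 3, by omega⟩
  have hq2 : 2 ≤ Nat.card F := Finite.one_lt_card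
  have hk1 : (Nat.card F + 1) / 3 = k + 1 := by omega
  have ha : (Nat.card F - 1) * ((Nat.card F + 1) / 3) ≠ 0 := Nat.mul_ne_zero (by omega) (by omega)
  have h3a : Nat.card F ^ 2 - 1 = 3 * ((Nat.card F - 1) * ((Nat.card F + 1) / 3)) := by
    have h1 : Nat.card F ^ 2 - 1 = (Nat.card F + 1) * (Nat.card F - 1) := by
      have := Nat.sq_sub_sq (Nat.card F) 1
      rwa [one_pow] at this
    rw [h1, hk1, show Nat.card F + 1 = 3 * (k + 1) by omega]
    ring
  have hcardL : Nat.card Lˣ = Nat.card F ^ 2 - 1 := by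
    rw [Nat.card_units, Module.natCard_eq_pow_finrank (K := F), hL]
  have hreg : Regular F 2 (powTheta θ₀ _ ha) := by
    rw [regular_powTheta_iff hθ₀ ha hL]
    intro i h0 hi hdvd
    obtain rfl : i = 1 := by omega
    rw [pow_one, h3a, mul_comm 3] at hdvd
    have h1 := Nat.dvd_of_mul_dvd_mul_left (Nat.pos_of_ne_zero ha) hdvd
    omega
  have htr : ∀ c : F, c ≠ 0 → powTheta θ₀ _ ha (algebraMap F L c) = 1 := fun c hc =>
    powTheta_algebraMap ha (Dvd.intro _ rfl) hc
  have h3 : ∀ x : L, x ≠ 0 → powTheta θ₀ _ ha x ^ 3 = 1 := by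
    intro x hx
    rw [powTheta_apply, ← pow_mul, mul_comm _ 3, ← h3a, ← hcardL, ← map_pow]
    have h1 : (Units.mk0 x hx) ^ Nat.card Lˣ = 1 := pow_card_eq_one'
    have h2 : x ^ Nat.card Lˣ = 1 := congrArg Units.val h1
    rw [h2, map_one]
  refine ⟨⟨psi L (powTheta θ₀ _ ha), psi_isIrr (powTheta θ₀ _ ha) hL hreg⟩, ?_, ?_, ?_, ?_, ?_, ?_, ?_⟩
  · show psi L (powTheta θ₀ _ ha) (1 : GL (Fin 2) F) = _
    rw [psi_one L (powTheta θ₀ _ ha) two_pos, degP]
    have h1 : ∏ i ∈ Finset.range (2 - 1), (Nat.card F ^ (i + 1) - 1) = Nat.card F - 1 := by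
      rw [show 2 - 1 = 1 from rfl, Finset.prod_range_one, zero_add, pow_one]
    rw [h1, Nat.cast_sub (by omega), Nat.cast_one]
  · intro c g
    show psi L (powTheta θ₀ _ ha) _ = psi L (powTheta θ₀ _ ha) g
    rw [psi_scalar (powTheta θ₀ _ ha) hL, htr c c.ne_zero, one_mul]
  · intro g hg
    exact psi_reg (powTheta θ₀ _ ha) hL htr h3
      (Nat.Coprime.symm ((Nat.Prime.coprime_iff_not_dvd Nat.prime_three).2 hg))
  · intro g hg
    exact psi_pos (powTheta θ₀ _ ha) htr hg
  · exact psi_isCusp L (powTheta θ₀ _ ha)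
  · intro g hg hc
    exact (psi_zero hL hq hθ₀ ha hg).1 hc
  · intro g hg hc
    exact (psi_zero hL hq hθ₀ ha hg).2 hc

end Cfsg.Agent.H367.HT
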